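import Mathlib
import Cfsg.Agent.Schreier.MTwentyFourSyl
import Cfsg.Prelude.Def_Transfer
set_option linter.all false

-- part: H302/Codes
section
/-!
# The group `UT_5(2)` modulo its centre: coordinates

`V` : nine Boolean coordinates `x_ij`, `(i, j) ≠ (1, 5)`; `mul` the product of matrices, `cm` the commutator.
`Emb S u` : `u` is an isomorphism from `V` onto the subgroup `S` (helper302; S3169-S3171).
-/

set_option autoImplicit false

namespace Cfsg.Agent.H302

/-- the codes of `UT_5(2)` modulo its centre -/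
structure V where
  a12 : Bool
  a23 : Bool
  a34 : Bool
  a45 : Bool
  a13 : Bool
  a24 : Bool
  a35 : Bool
  a14 : Bool
  a25 : Bool
  deriving DecidableEq

namespace V

theorem ext' {v w : V} (h12 : v.a12 = w.a12) (h23 : v.a23 = w.a23) (h34 : v.a34 = w.a34)
    (h45 : v.a45 = w.a45) (h13 : v.a13 = w.a13) (h24 : v.a24 = w.a24) (h35 : v.a35 = w.a35)
    (h14 : v.a14 = w.a14) (h25 : v.a25 = w.a25) : v = w := by
  cases v; cases w; simp_all

/-- the codes as a product -/
def eqv : V ≃ (Bool × Bool × Bool) × (Bool × Bool × Bool) × (Bool × Bool × Bool) where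
  toFun v := ((v.a12, v.a23, v.a34), (v.a45, v.a13, v.a24), (v.a35, v.a14, v.a25))
  invFun w := ⟨w.1.1, w.1.2.1, w.1.2.2, w.2.1.1, w.2.1.2.1, w.2.1.2.2, w.2.2.1, w.2.2.2.1, w.2.2.2.2⟩
  left_inv _ := rfl
  right_inv _ := rfl

instance instFintypeV : Fintype V := Fintype.ofEquiv _ eqv.symm

theorem card_V : Fintype.card V = 512 := by
  rw [Fintype.card_congr eqv]
  simp

end V

/-- the identity -/
def one : V := ⟨false, false, false, false, false, false, false, false, false⟩

/-- the product of matrices -/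
def mul (a b : V) : V where
  a12 := a.a12 ^^ b.a12
  a23 := a.a23 ^^ b.a23
  a34 := a.a34 ^^ b.a34
  a45 := a.a45 ^^ b.a45
  a13 := (a.a13 ^^ b.a13) ^^ (a.a12 && b.a23)
  a24 := (a.a24 ^^ b.a24) ^^ (a.a23 && b.a34)
  a35 := (a.a35 ^^ b.a35) ^^ (a.a34 && b.a45)
  a14 := (a.a14 ^^ b.a14) ^^ ((a.a13 && b.a34) ^^ (a.a12 && b.a24))
  a25 := (a.a25 ^^ b.a25) ^^ ((a.a24 && b.a45) ^^ (a.a23 && b.a35))

/-- the entry `15` of the product -/
def ct (a b : V) : Bool := ((a.a14 && b.a45) ^^ (a.a13 && b.a35)) ^^ (a.a12 && b.a25)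

/-- the commutator -/
def cm (s a : V) : V where
  a12 := false
  a23 := false
  a34 := false
  a45 := false
  a13 := (s.a12 && a.a23) ^^ (a.a12 && s.a23)
  a24 := (s.a23 && a.a34) ^^ (a.a23 && s.a34)
  a35 := (s.a34 && a.a45) ^^ (a.a34 && s.a45)
  a14 := ((s.a13 && a.a34) ^^ (s.a12 && a.a24)) ^^ ((a.a13 && s.a34) ^^ (a.a12 && s.a24)) ^^
    (((s.a12 && a.a23) ^^ (a.a12 && s.a23)) && (a.a34 ^^ s.a34))
  a25 := ((s.a24 && a.a45) ^^ (s.a23 && a.a35)) ^^ ((a.a24 && s.a45) ^^ (a.a23 && s.a35)) ^^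
    (((s.a23 && a.a34) ^^ (a.a23 && s.a34)) && (a.a45 ^^ s.a45))

theorem mul_cm (s a : V) : mul (cm s a) (mul a s) = mul s a := by
  obtain ⟨s12, s23, s34, s45, s13, s24, s35, s14, s25⟩ := s
  obtain ⟨t12, t23, t34, t45, t13, t24, t35, t14, t25⟩ := a
  have h1 : ∀ s12 t12 : Bool, (t12 ^^ s12) = (s12 ^^ t12) := by decide
  have h13 : ∀ s12 s23 s13 t12 t23 t13 : Bool,
      ((((s12 && t23) ^^ (t12 && s23)) ^^ ((t13 ^^ s13) ^^ (t12 && s23))) ^^ (false && (t23 ^^ s23))) =
        ((s13 ^^ t13) ^^ (s12 && t23)) := by decide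
  apply V.ext'
  · exact (Bool.false_xor _).trans (h1 _ _)
  · exact (Bool.false_xor _).trans (h1 _ _)
  · exact (Bool.false_xor _).trans (h1 _ _)
  · exact (Bool.false_xor _).trans (h1 _ _)
  · exact h13 _ _ _ _ _ _
  · exact h13 _ _ _ _ _ _
  · exact h13 _ _ _ _ _ _
  · simp only [mul, cm]
    revert s12 s23 s34 s13 s24 s14 t12 t23 t34 t13 t24 t14
    clear h1 h13
    decide +kernel
  · simp only [mul, cm]
    revert s45 s23 s34 s35 s24 s25 t45 t23 t34 t35 t24 t25
    clear h1 h13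
    decide +kernel

end Cfsg.Agent.H302
end

-- part: H302/M24Syl
section
/-!
# Coordinates on a Sylow 2-subgroup of `M24` and on its quotient by the centre (helper302)
-/

set_option autoImplicit false

namespace Cfsg.Agent.H302

open Cfsg Cfsg.Agent.SporadicStructure.M24El Cfsg.Agent.Schreier.MTwentyFourSyl

/-- `u` is an isomorphism from the codes onto the subgroup `S` -/
structure Emb {G : Type*} [Group G] (S : Subgroup G) (u : V → G) : Prop where
  mul : ∀ a b, u (H302.mul a b) = u a * u b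
  inj : Function.Injective u
  mem : ∀ a, u a ∈ S
  surj : ∀ g ∈ S, ∃ a, u a = g

namespace M24Syl

/-- the product of a word in the ten involutions -/
noncomputable def W (l : List ℕ) : M24 := (l.map fun i => el (gl.getD i idP)).prod

theorem W_append (l l' : List ℕ) : W (l ++ l') = W l * W l' := by
  unfold W
  rw [List.map_append, List.prod_append]

theorem W_eq {l l' : List ℕ} (h : Nat.beq (prodW gl l) (prodW gl l') = true) : W l = W l' := by
  have h1 := congrArg el (Nat.eq_of_beq_eq_true h)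
  rw [el_prodW gl_ok, el_prodW gl_ok] at h1
  exact h1

/-- optional letter -/
def o (b : Bool) (i : ℕ) : List ℕ := if b then [i] else []

/-- the rows -/
def w4 (t : Bool) : List ℕ := o t 9
def w3 (p q : Bool) : List ℕ := o p 8 ++ o q 5
def w2 (p q r : Bool) : List ℕ := o p 7 ++ (o q 4 ++ o r 2)
def w1 (p q r s : Bool) : List ℕ := o p 6 ++ (o q 3 ++ (o r 1 ++ o s 0))

theorem k44 : ∀ t t' : Bool, Nat.beq (prodW gl (w4 t ++ w4 t')) (prodW gl (w4 (t ^^ t'))) = true := by
  decide +kernel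
theorem k33 : ∀ p q p' q' : Bool, Nat.beq (prodW gl (w3 p q ++ w3 p' q'))
    (prodW gl (w3 (p ^^ p') (q ^^ q'))) = true := by
  decide +kernel
theorem k22 : ∀ p q r p' q' r' : Bool, Nat.beq (prodW gl (w2 p q r ++ w2 p' q' r'))
    (prodW gl (w2 (p ^^ p') (q ^^ q') (r ^^ r'))) = true := by
  decide +kernel
theorem k11 : ∀ p q r s p' q' r' s' : Bool, Nat.beq (prodW gl (w1 p q r s ++ w1 p' q' r' s'))
    (prodW gl (w1 (p ^^ p') (q ^^ q') (r ^^ r') (s ^^ s'))) = true := by
  decide +kernel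
theorem k34 : ∀ p q t : Bool, Nat.beq (prodW gl (w3 p q ++ w4 t))
    (prodW gl (w4 t ++ w3 p (q ^^ (p && t)))) = true := by
  decide +kernel
theorem k24 : ∀ p q r t : Bool, Nat.beq (prodW gl (w2 p q r ++ w4 t))
    (prodW gl (w4 t ++ w2 p q (r ^^ (q && t)))) = true := by
  decide +kernel
theorem k14 : ∀ p q r s t : Bool, Nat.beq (prodW gl (w1 p q r s ++ w4 t))
    (prodW gl (w4 t ++ w1 p q r (s ^^ (r && t)))) = true := by
  decide +kernel
theorem k23 : ∀ p q r a b : Bool, Nat.beq (prodW gl (w2 p q r ++ w3 a b))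
    (prodW gl (w3 a b ++ w2 p (q ^^ (p && a)) (r ^^ (p && b)))) = true := by
  decide +kernel
theorem k13 : ∀ p q r s a b : Bool, Nat.beq (prodW gl (w1 p q r s ++ w3 a b))
    (prodW gl (w3 a b ++ w1 p q (r ^^ (q && a)) (s ^^ (q && b)))) = true := by
  decide +kernel
theorem k12 : ∀ p q r s a b c : Bool, Nat.beq (prodW gl (w1 p q r s ++ w2 a b c))
    (prodW gl (w2 a b c ++ w1 p (q ^^ (p && a)) (r ^^ (p && b)) (s ^^ (p && c)))) = true := by
  decide +kernel

/-- the element with given coordinates -/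
noncomputable def phi (v : V) (p : Bool) : M24 :=
  W (w4 v.a45) * (W (w3 v.a34 v.a35) * (W (w2 v.a23 v.a24 v.a25) * W (w1 v.a12 v.a13 v.a14 p)))

theorem phi_mul (v w : V) (p q : Bool) :
    phi (H302.mul v w) ((p ^^ q) ^^ ct v w) = phi v p * phi w q := by
  obtain ⟨a12, a23, a34, a45, a13, a24, a35, a14, a25⟩ := v
  obtain ⟨b12, b23, b34, b45, b13, b24, b35, b14, b25⟩ := w
  simp only [phi, H302.mul, ct]
  have e14 : W (w1 a12 a13 a14 p) * W (w4 b45) = W (w4 b45) * W (w1 a12 a13 a14 (p ^^ (a14 && b45))) := by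
    rw [← W_append, ← W_append]; exact W_eq (k14 _ _ _ _ _)
  have e24 : W (w2 a23 a24 a25) * W (w4 b45) = W (w4 b45) * W (w2 a23 a24 (a25 ^^ (a24 && b45))) := by
    rw [← W_append, ← W_append]; exact W_eq (k24 _ _ _ _)
  have e34 : W (w3 a34 a35) * W (w4 b45) = W (w4 b45) * W (w3 a34 (a35 ^^ (a34 && b45))) := by
    rw [← W_append, ← W_append]; exact W_eq (k34 _ _ _)
  have e13 : W (w1 a12 a13 a14 (p ^^ (a14 && b45))) * W (w3 b34 b35) =
      W (w3 b34 b35) * W (w1 a12 a13 (a14 ^^ (a13 && b34)) ((p ^^ (a14 && b45)) ^^ (a13 && b35))) := by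
    rw [← W_append, ← W_append]; exact W_eq (k13 _ _ _ _ _ _)
  have e23 : W (w2 a23 a24 (a25 ^^ (a24 && b45))) * W (w3 b34 b35) =
      W (w3 b34 b35) * W (w2 a23 (a24 ^^ (a23 && b34)) ((a25 ^^ (a24 && b45)) ^^ (a23 && b35))) := by
    rw [← W_append, ← W_append]; exact W_eq (k23 _ _ _ _ _)
  have e12 : W (w1 a12 a13 (a14 ^^ (a13 && b34)) ((p ^^ (a14 && b45)) ^^ (a13 && b35))) *
      W (w2 b23 b24 b25) = W (w2 b23 b24 b25) * W (w1 a12 (a13 ^^ (a12 && b23))
        ((a14 ^^ (a13 && b34)) ^^ (a12 && b24))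
        (((p ^^ (a14 && b45)) ^^ (a13 && b35)) ^^ (a12 && b25))) := by
    rw [← W_append, ← W_append]; exact W_eq (k12 _ _ _ _ _ _ _)
  have f4 : W (w4 a45) * W (w4 b45) = W (w4 (a45 ^^ b45)) := by
    rw [← W_append]; exact W_eq (k44 _ _)
  have f3 : W (w3 a34 (a35 ^^ (a34 && b45))) * W (w3 b34 b35) =
      W (w3 (a34 ^^ b34) ((a35 ^^ (a34 && b45)) ^^ b35)) := by
    rw [← W_append]; exact W_eq (k33 _ _ _ _)
  have f2 : W (w2 a23 (a24 ^^ (a23 && b34)) ((a25 ^^ (a24 && b45)) ^^ (a23 && b35))) *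
      W (w2 b23 b24 b25) = W (w2 (a23 ^^ b23) ((a24 ^^ (a23 && b34)) ^^ b24)
        (((a25 ^^ (a24 && b45)) ^^ (a23 && b35)) ^^ b25)) := by
    rw [← W_append]; exact W_eq (k22 _ _ _ _ _ _)
  have f1 : W (w1 a12 (a13 ^^ (a12 && b23)) ((a14 ^^ (a13 && b34)) ^^ (a12 && b24))
        (((p ^^ (a14 && b45)) ^^ (a13 && b35)) ^^ (a12 && b25))) * W (w1 b12 b13 b14 q) =
      W (w1 (a12 ^^ b12) ((a13 ^^ (a12 && b23)) ^^ b13) (((a14 ^^ (a13 && b34)) ^^ (a12 && b24)) ^^ b14)
        ((((p ^^ (a14 && b45)) ^^ (a13 && b35)) ^^ (a12 && b25)) ^^ q)) := by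
    rw [← W_append]; exact W_eq (k11 _ _ _ _ _ _ _ _)
  have g35 : ((a35 ^^ (a34 && b45)) ^^ b35) = ((a35 ^^ b35) ^^ (a34 && b45)) := by
    cases a35 <;> cases b35 <;> cases (a34 && b45) <;> rfl
  have g24 : ((a24 ^^ (a23 && b34)) ^^ b24) = ((a24 ^^ b24) ^^ (a23 && b34)) := by
    cases a24 <;> cases b24 <;> cases (a23 && b34) <;> rfl
  have g25 : (((a25 ^^ (a24 && b45)) ^^ (a23 && b35)) ^^ b25) =
      ((a25 ^^ b25) ^^ ((a24 && b45) ^^ (a23 && b35))) := by
    cases a25 <;> cases b25 <;> cases (a24 && b45) <;> cases (a23 && b35) <;> rfl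
  have g13 : ((a13 ^^ (a12 && b23)) ^^ b13) = ((a13 ^^ b13) ^^ (a12 && b23)) := by
    cases a13 <;> cases b13 <;> cases (a12 && b23) <;> rfl
  have g14 : (((a14 ^^ (a13 && b34)) ^^ (a12 && b24)) ^^ b14) =
      ((a14 ^^ b14) ^^ ((a13 && b34) ^^ (a12 && b24))) := by
    cases a14 <;> cases b14 <;> cases (a13 && b34) <;> cases (a12 && b24) <;> rfl
  have g15 : ((((p ^^ (a14 && b45)) ^^ (a13 && b35)) ^^ (a12 && b25)) ^^ q) =
      ((p ^^ q) ^^ (((a14 && b45) ^^ (a13 && b35)) ^^ (a12 && b25))) := by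
    cases p <;> cases q <;> cases (a14 && b45) <;> cases (a13 && b35) <;> cases (a12 && b25) <;> rfl
  rw [g35] at f3
  rw [g24, g25] at f2
  rw [g13, g14, g15] at f1
  rw [← f4, ← f3, ← f2, ← f1]
  symm
  calc W (w4 a45) * (W (w3 a34 a35) * (W (w2 a23 a24 a25) * W (w1 a12 a13 a14 p))) *
        (W (w4 b45) * (W (w3 b34 b35) * (W (w2 b23 b24 b25) * W (w1 b12 b13 b14 q))))
      = W (w4 a45) * W (w3 a34 a35) * W (w2 a23 a24 a25) * (W (w1 a12 a13 a14 p) * W (w4 b45)) *
          W (w3 b34 b35) * W (w2 b23 b24 b25) * W (w1 b12 b13 b14 q) := by simp only [mul_assoc]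
    _ = W (w4 a45) * W (w3 a34 a35) * (W (w2 a23 a24 a25) * W (w4 b45)) *
          (W (w1 a12 a13 a14 (p ^^ (a14 && b45))) * W (w3 b34 b35)) * W (w2 b23 b24 b25) *
          W (w1 b12 b13 b14 q) := by rw [e14]; simp only [mul_assoc]
    _ = W (w4 a45) * (W (w3 a34 a35) * W (w4 b45)) *
          (W (w2 a23 a24 (a25 ^^ (a24 && b45))) * W (w3 b34 b35)) *
          (W (w1 a12 a13 (a14 ^^ (a13 && b34)) ((p ^^ (a14 && b45)) ^^ (a13 && b35))) *
          W (w2 b23 b24 b25)) * W (w1 b12 b13 b14 q) := by rw [e24, e13]; simp only [mul_assoc]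
    _ = _ := by rw [e34, e23, e12]; simp only [mul_assoc]

theorem o_mem {b : Bool} {i j : ℕ} (hj : j < 10) (h : i ∈ o b j) : i < 10 := by
  cases b
  · exact absurd h (by simp [o])
  · have : i = j := by simpa [o] using h
    omega

theorem W_mem {l : List ℕ} (h : ∀ i ∈ l, i < 10) : W l ∈ sub gl 10 := by
  apply Subgroup.list_prod_mem
  intro x hx
  obtain ⟨i, hi, rfl⟩ := List.mem_map.1 hx
  exact mem_sub (h i hi)

theorem phi_mem (v : V) (p : Bool) : phi v p ∈ sub gl 10 := by
  have h9 : (9 : ℕ) < 10 := by norm_num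
  refine mul_mem (W_mem ?_) (mul_mem (W_mem ?_) (mul_mem (W_mem ?_) (W_mem ?_)))
  · intro i hi
    exact o_mem (by norm_num) hi
  · intro i hi
    rcases List.mem_append.1 hi with hi | hi <;> exact o_mem (by norm_num) hi
  · intro i hi
    rcases List.mem_append.1 hi with hi | hi
    · exact o_mem (by norm_num) hi
    rcases List.mem_append.1 hi with hi | hi <;> exact o_mem (by norm_num) hi
  · intro i hi
    rcases List.mem_append.1 hi with hi | hi
    · exact o_mem (by norm_num) hi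
    rcases List.mem_append.1 hi with hi | hi
    · exact o_mem (by norm_num) hi
    rcases List.mem_append.1 hi with hi | hi <;> exact o_mem (by norm_num) hi

/-- the codes of the ten involutions -/
def cd (i : ℕ) : V × Bool :=
  (⟨i == 6, i == 7, i == 8, i == 9, i == 3, i == 4, i == 5, i == 1, i == 2⟩, i == 0)

theorem phi_one : phi one false = 1 := by
  simp [phi, one, w4, w3, w2, w1, o, W]

theorem phi_cd (i : ℕ) (hi : i < 10) : phi (cd i).1 (cd i).2 = el (gl.getD i idP) := by
  interval_cases i <;> simp [phi, cd, w4, w3, w2, w1, o, W]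

/-- the range of the coordinates -/
noncomputable def rg : Submonoid M24 where
  carrier := {g | ∃ v p, phi v p = g}
  one_mem' := ⟨one, false, phi_one⟩
  mul_mem' := by
    rintro _ _ ⟨v, p, rfl⟩ ⟨w, q, rfl⟩
    exact ⟨_, _, phi_mul v w p q⟩

theorem surj (g : M24) (hg : g ∈ sub gl 10) : ∃ v p, phi v p = g := by
  have h1 : g ∈ rg := by
    have hle : sub gl 10 ≤ (Subgroup.closure (rg : Set M24)) := by
      unfold sub
      rw [Subgroup.closure_le]
      rintro _ ⟨j, hj, rfl⟩
      exact Subgroup.subset_closure ⟨_, _, phi_cd j hj⟩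
    have h2 := hle hg
    have h3 : (Subgroup.closure (rg : Set M24)).toSubmonoid = rg := by
      rw [Subgroup.closure_toSubmonoid_of_finite, Submonoid.closure_eq]
    have h4 : g ∈ (Subgroup.closure (rg : Set M24)).toSubmonoid := h2
    rwa [h3] at h4
  exact h1

theorem inj {v w : V} {p q : Bool} (h : phi v p = phi w q) : v = w ∧ p = q := by
  have h1 : Function.Surjective (fun x : V × Bool => (⟨phi x.1 x.2, phi_mem _ _⟩ : sub gl 10)) := by
    rintro ⟨g, hg⟩
    obtain ⟨v, p, rfl⟩ := surj g hg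
    exact ⟨(v, p), rfl⟩
  have hc : Nat.card (V × Bool) = Nat.card (sub gl 10) := by
    rw [card_T, Nat.card_prod, Nat.card_eq_fintype_card, V.card_V, Nat.card_eq_fintype_card,
      Fintype.card_bool]
    norm_num
  have h2 := (Nat.bijective_iff_surjective_and_card _).2 ⟨h1, hc⟩
  have h3 := @h2.1 (v, p) (w, q) (Subtype.ext h)
  exact Prod.mk.inj h3

end M24Syl

/-- coordinates on a group isomorphic to `UT_5(2)` -/
structure Cod (Q : Type*) [Group Q] (u : V → Bool → Q) : Prop where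
  mul : ∀ a b p q, u (H302.mul a b) ((p ^^ q) ^^ ct a b) = u a p * u b q
  inj : ∀ {a b p q}, u a p = u b q → a = b ∧ p = q
  surj : ∀ g, ∃ a p, u a p = g

open M24Syl in
theorem exists_cod (P : Sylow 2 M24) : ∃ u : V → Bool → (P : Subgroup M24), Cod (P : Subgroup M24) u := by
  let e : (T : Subgroup M24) ≃* (P : Subgroup M24) := Sylow.equiv T P
  refine ⟨fun v p => e ⟨phi v p, phi_mem v p⟩, ?_, ?_, ?_⟩
  · intro a b p q
    rw [← map_mul]
    congr 1
    exact Subtype.ext (phi_mul a b p q)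
  · intro a b p q h
    exact M24Syl.inj (congrArg Subtype.val (e.injective h))
  · intro g
    obtain ⟨⟨t, ht⟩, rfl⟩ := e.surjective g
    obtain ⟨v, p, hv⟩ := M24Syl.surj t ht
    exact ⟨v, p, by congr 1; exact Subtype.ext hv⟩

end Cfsg.Agent.H302
end

-- part: H302/Struct
section
/-!
# Structure of `UT_5(2)` modulo its centre (helper302)

`pA`, `pI`, `pK`, `pM` : the codes of the subgroups `A` (abelian of order 64), `I = [A, S]`, `K = Z(S)`,
`M = ⟨I, x24⟩`.
-/

set_option autoImplicit false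

namespace Cfsg.Agent.H302

open Subgroup

/-- the abelian subgroup of order 64 -/
def pA (v : V) : Bool := (!v.a23 && !v.a34) && !v.a24
/-- `[A, S]` -/
def pI (v : V) : Bool := pA v && (!v.a12 && !v.a45)
/-- the centre -/
def pK (v : V) : Bool := pI v && (!v.a13 && !v.a35)
/-- `⟨I, x24⟩` -/
def pM (v : V) : Bool := (!v.a23 && !v.a34) && (!v.a12 && !v.a45)

/-- the inverse -/
def iv (a : V) : V where
  a12 := a.a12
  a23 := a.a23
  a34 := a.a34
  a45 := a.a45
  a13 := a.a13 ^^ (a.a12 && a.a23)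
  a24 := a.a24 ^^ (a.a23 && a.a34)
  a35 := a.a35 ^^ (a.a34 && a.a45)
  a14 := a.a14 ^^ ((a.a13 && a.a34) ^^ (a.a12 && (a.a24 ^^ (a.a23 && a.a34))))
  a25 := a.a25 ^^ ((a.a24 && a.a45) ^^ (a.a23 && (a.a35 ^^ (a.a34 && a.a45))))

theorem mul_iv (a : V) : mul a (iv a) = one := by
  obtain ⟨s12, s23, s34, s45, s13, s24, s35, s14, s25⟩ := a
  apply V.ext' <;> simp [mul, iv, one]

theorem mul_one' (a : V) : mul a one = a := by
  obtain ⟨s12, s23, s34, s45, s13, s24, s35, s14, s25⟩ := a
  apply V.ext' <;> simp [mul, one]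

theorem one_mul' (a : V) : mul one a = a := by
  obtain ⟨s12, s23, s34, s45, s13, s24, s35, s14, s25⟩ := a
  apply V.ext' <;> simp [mul, one]

theorem pA_iff {v : V} : pA v = true ↔ v.a23 = false ∧ v.a34 = false ∧ v.a24 = false := by
  simp [pA, and_assoc]

theorem pI_iff {v : V} : pI v = true ↔ v.a23 = false ∧ v.a34 = false ∧ v.a24 = false ∧ v.a12 = false ∧
    v.a45 = false := by
  simp [pI, pA, and_assoc]

theorem pK_iff {v : V} : pK v = true ↔ v.a23 = false ∧ v.a34 = false ∧ v.a24 = false ∧ v.a12 = false ∧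
    v.a45 = false ∧ v.a13 = false ∧ v.a35 = false := by
  simp [pK, pI, pA, and_assoc]

theorem pM_iff {v : V} : pM v = true ↔ v.a23 = false ∧ v.a34 = false ∧ v.a12 = false ∧ v.a45 = false := by
  simp [pM, and_assoc]

section
variable {G : Type*} [Group G] {S : Subgroup G} {u : V → G}

namespace Emb

theorem one (h : Emb S u) : u H302.one = 1 := by
  have h1 := h.mul H302.one H302.one
  rw [mul_one'] at h1
  exact left_eq_mul.1 h1

theorem inv (h : Emb S u) (a : V) : (u a)⁻¹ = u (iv a) := by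
  apply inv_eq_of_mul_eq_one_right
  rw [← h.mul, mul_iv, h.one]

theorem comm (h : Emb S u) (s a : V) : u s * u a * (u s)⁻¹ * (u a)⁻¹ = u (cm s a) := by
  have h1 := congrArg u (mul_cm s a)
  rw [h.mul, h.mul, h.mul] at h1
  rw [← h1]
  group

/-- the subgroup of the elements whose codes satisfy `p` -/
def sub (h : Emb S u) (p : V → Bool) (h1 : p H302.one = true) (hm : ∀ a b, p a = true → p b = true →
    p (H302.mul a b) = true) (hi : ∀ a, p a = true → p (iv a) = true) : Subgroup G where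
  carrier := {g | ∃ a, p a = true ∧ u a = g}
  one_mem' := ⟨H302.one, h1, h.one⟩
  mul_mem' := by
    rintro _ _ ⟨a, ha, rfl⟩ ⟨b, hb, rfl⟩
    exact ⟨_, hm a b ha hb, h.mul a b⟩
  inv_mem' := by
    rintro _ ⟨a, ha, rfl⟩
    exact ⟨_, hi a ha, (h.inv a).symm⟩

theorem commute_iff (h : Emb S u) (s a : V) : u s * u a = u a * u s ↔ H302.mul s a = H302.mul a s := by
  rw [← h.mul, ← h.mul]
  exact ⟨fun h1 => h.inj h1, fun h1 => by rw [h1]⟩

theorem card (h : Emb S u) : Nat.card S = 512 := by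
  rw [← V.card_V, ← Nat.card_eq_fintype_card]
  symm
  refine Nat.card_congr (Equiv.ofBijective (fun a => (⟨u a, h.mem a⟩ : S)) ⟨?_, ?_⟩)
  · intro a b hab
    exact h.inj (congrArg Subtype.val hab)
  · rintro ⟨g, hg⟩
    obtain ⟨a, rfl⟩ := h.surj g hg
    exact ⟨a, rfl⟩

end Emb

theorem pA_one : pA one = true := by decide
theorem pA_mul (a b : V) (ha : pA a = true) (hb : pA b = true) : pA (mul a b) = true := by
  rw [pA_iff] at *
  obtain ⟨h1, h2, h3⟩ := ha
  obtain ⟨k1, k2, k3⟩ := hb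
  simp [mul, h1, h2, h3, k1, k2, k3]
theorem pA_iv (a : V) (ha : pA a = true) : pA (iv a) = true := by
  rw [pA_iff] at *
  obtain ⟨h1, h2, h3⟩ := ha
  simp [iv, h1, h2, h3]

theorem pI_one : pI one = true := by decide
theorem pI_mul (a b : V) (ha : pI a = true) (hb : pI b = true) : pI (mul a b) = true := by
  rw [pI_iff] at *
  obtain ⟨h1, h2, h3, h4, h5⟩ := ha
  obtain ⟨k1, k2, k3, k4, k5⟩ := hb
  simp [mul, h1, h2, h3, k1, k2, k3, h4, h5, k4, k5]
theorem pI_iv (a : V) (ha : pI a = true) : pI (iv a) = true := by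
  rw [pI_iff] at *
  obtain ⟨h1, h2, h3, h4, h5⟩ := ha
  simp [iv, h1, h2, h3, h4, h5]

theorem pK_one : pK one = true := by decide
theorem pK_mul (a b : V) (ha : pK a = true) (hb : pK b = true) : pK (mul a b) = true := by
  rw [pK_iff] at *
  obtain ⟨h1, h2, h3, h4, h5, h6, h7⟩ := ha
  obtain ⟨k1, k2, k3, k4, k5, k6, k7⟩ := hb
  simp [mul, h1, h2, h3, k1, k2, k3, h4, h5, k4, k5, h6, h7, k6, k7]
theorem pK_iv (a : V) (ha : pK a = true) : pK (iv a) = true := by
  rw [pK_iff] at *
  obtain ⟨h1, h2, h3, h4, h5, h6, h7⟩ := ha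
  simp [iv, h1, h2, h3, h4, h5, h6, h7]

theorem pM_one : pM one = true := by decide
theorem pM_mul (a b : V) (ha : pM a = true) (hb : pM b = true) : pM (mul a b) = true := by
  rw [pM_iff] at *
  obtain ⟨h1, h2, h3, h4⟩ := ha
  obtain ⟨k1, k2, k3, k4⟩ := hb
  simp [mul, h1, h2, h3, k1, k2, k3, h4, k4]
theorem pM_iv (a : V) (ha : pM a = true) : pM (iv a) = true := by
  rw [pM_iff] at *
  obtain ⟨h1, h2, h3, h4⟩ := ha
  simp [iv, h1, h2, h3, h4]

/-- the subgroup `A` -/
def Emb.A (h : Emb S u) : Subgroup G := h.sub pA pA_one pA_mul pA_iv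
/-- the subgroup `I` -/
def Emb.I (h : Emb S u) : Subgroup G := h.sub pI pI_one pI_mul pI_iv
/-- the subgroup `K` -/
def Emb.K (h : Emb S u) : Subgroup G := h.sub pK pK_one pK_mul pK_iv
/-- the subgroup `M` -/
def Emb.M (h : Emb S u) : Subgroup G := h.sub pM pM_one pM_mul pM_iv

theorem Emb.mem_A (h : Emb S u) {a : V} : u a ∈ h.A ↔ pA a = true :=
  ⟨fun ⟨_, hb, hb'⟩ => h.inj hb' ▸ hb, fun ha => ⟨a, ha, rfl⟩⟩
theorem Emb.mem_I (h : Emb S u) {a : V} : u a ∈ h.I ↔ pI a = true :=
  ⟨fun ⟨_, hb, hb'⟩ => h.inj hb' ▸ hb, fun ha => ⟨a, ha, rfl⟩⟩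
theorem Emb.mem_K (h : Emb S u) {a : V} : u a ∈ h.K ↔ pK a = true :=
  ⟨fun ⟨_, hb, hb'⟩ => h.inj hb' ▸ hb, fun ha => ⟨a, ha, rfl⟩⟩
theorem Emb.mem_M (h : Emb S u) {a : V} : u a ∈ h.M ↔ pM a = true :=
  ⟨fun ⟨_, hb, hb'⟩ => h.inj hb' ▸ hb, fun ha => ⟨a, ha, rfl⟩⟩

theorem Emb.A_le (h : Emb S u) : h.A ≤ S := by
  rintro _ ⟨a, -, rfl⟩
  exact h.mem a

theorem mul_self_A (a : V) (ha : pA a = true) : mul a a = one := by
  rw [pA_iff] at ha
  obtain ⟨h1, h2, h3⟩ := ha
  apply V.ext' <;> simp [mul, h1, h2, h3, H302.one]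

theorem mul_comm_A (a b : V) (ha : pA a = true) (hb : pA b = true) : mul a b = mul b a := by
  rw [pA_iff] at ha hb
  obtain ⟨h1, h2, h3⟩ := ha
  obtain ⟨k1, k2, k3⟩ := hb
  apply V.ext' <;> simp [mul, h1, h2, h3, k1, k2, k3, Bool.xor_comm]

theorem Emb.A_comm (h : Emb S u) : IsMulCommutative h.A := by
  constructor
  constructor
  rintro ⟨_, a, ha, rfl⟩ ⟨_, b, hb, rfl⟩
  apply Subtype.ext
  change u a * u b = u b * u a
  rw [h.commute_iff]
  exact mul_comm_A a b ha hb

theorem Emb.A_elem (h : Emb S u) : Cfsg.IsElementaryAbelian 2 h.A := by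
  refine ⟨h.A_comm, ?_⟩
  rintro _ ⟨a, ha, rfl⟩
  rw [pow_two, ← h.mul, mul_self_A a ha, h.one]

theorem card_pA : Fintype.card {v : V // pA v = true} = 64 := by
  have e : {v : V // pA v = true} ≃ (Bool × Bool × Bool) × (Bool × Bool × Bool) :=
    { toFun := fun v => ((v.1.a12, v.1.a45, v.1.a13), (v.1.a35, v.1.a14, v.1.a25))
      invFun := fun w => ⟨⟨w.1.1, false, false, w.1.2.1, w.1.2.2, false, w.2.1, w.2.2.1, w.2.2.2⟩, rfl⟩
      left_inv := by
        rintro ⟨v, hv⟩
        rw [pA_iff] at hv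
        obtain ⟨h1, h2, h3⟩ := hv
        apply Subtype.ext
        apply V.ext' <;> simp [h1, h2, h3]
      right_inv := fun w => rfl }
  rw [Fintype.card_congr e]
  simp

theorem Emb.card_A (h : Emb S u) : Nat.card h.A = 64 := by
  rw [← card_pA, ← Nat.card_eq_fintype_card]
  symm
  refine Nat.card_congr (Equiv.ofBijective (fun a => (⟨u a.1, a.1, a.2, rfl⟩ : h.A)) ⟨?_, ?_⟩)
  · intro a b hab
    exact Subtype.ext (h.inj (congrArg Subtype.val hab))
  · rintro ⟨_, a, ha, rfl⟩
    exact ⟨⟨a, ha⟩, rfl⟩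

/-- transport -/
theorem Emb.of_equiv {G' : Type*} [Group G'] {S' : Subgroup G'} (h : Emb S u) (e : S ≃* S') :
    Emb S' (fun a => (e ⟨u a, h.mem a⟩ : G')) := by
  refine ⟨?_, ?_, fun a => (e _).2, ?_⟩
  · intro a b
    rw [← Subgroup.coe_mul, ← map_mul]
    congr 2
    exact Subtype.ext (h.mul a b)
  · intro a b hab
    have h1 := e.injective (Subtype.ext hab)
    exact h.inj (congrArg Subtype.val h1)
  · intro g hg
    obtain ⟨⟨t, ht⟩, ht'⟩ := e.surjective ⟨g, hg⟩
    obtain ⟨a, rfl⟩ := h.surj t ht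
    exact ⟨a, congrArg Subtype.val ht'⟩

end

/-! ### The centre of `UT_5(2)` -/

section
variable {Q : Type*} [Group Q] {u : V → Bool → Q}

theorem ct_one (a : V) : ct a one = false := by simp [ct, one]
theorem one_ct (a : V) : ct one a = false := by simp [ct, one]

theorem Cod.mul_z (h : Cod Q u) (a : V) (p : Bool) : u a p = u a false * u one p := by
  rw [← h.mul, mul_one', ct_one]
  simp

theorem Cod.z_mul (h : Cod Q u) (a : V) (p : Bool) : u a p = u one p * u a false := by
  rw [← h.mul, one_mul', one_ct]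
  simp

theorem Cod.one (h : Cod Q u) : u H302.one false = 1 := by
  have h1 := h.mul H302.one H302.one false false
  rw [mul_one', ct_one] at h1
  exact left_eq_mul.1 h1

theorem xor_cancel {a b : Bool} (h : (a ^^ b) = a) : b = false := by
  revert a b
  decide

theorem Cod.mem_center (h : Cod Q u) (a : V) (p : Bool) : u a p ∈ center Q ↔ a = H302.one := by
  rw [mem_center_iff]
  constructor
  · intro h1
    have key : ∀ (b : V) (q : Bool), H302.mul b a = H302.mul a b ∧ ct b a = ct a b := by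
      intro b q
      have h2 := h1 (u b q)
      rw [← h.mul, ← h.mul] at h2
      have h3 := h.inj h2
      refine ⟨h3.1, ?_⟩
      have h4 := h3.2
      rw [Bool.xor_comm q p] at h4
      exact (Bool.xor_right_inj).1 h4
    have e1 := key ⟨true, false, false, false, false, false, false, false, false⟩ false
    have e2 := key ⟨false, true, false, false, false, false, false, false, false⟩ false
    have e3 := key ⟨false, false, true, false, false, false, false, false, false⟩ false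
    have e4 := key ⟨false, false, false, true, false, false, false, false, false⟩ false
    have f1 : a.a23 = false := xor_cancel (by simpa [H302.mul] using congrArg V.a13 e1.1)
    have f2 : a.a24 = false := xor_cancel (by simpa [H302.mul] using congrArg V.a14 e1.1)
    have f3 : a.a25 = false := by simpa [ct] using e1.2
    have f4 : a.a34 = false := xor_cancel (by simpa [H302.mul] using (congrArg V.a35 e4.1).symm)
    have f5 : a.a14 = false := by simpa [ct] using e4.2.symm
    have f6 : a.a35 = false := xor_cancel (by simpa [H302.mul] using congrArg V.a25 e2.1)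
    have f7 : a.a12 = false := xor_cancel (by simpa [H302.mul] using (congrArg V.a13 e2.1).symm)
    have f8 : a.a45 = false := xor_cancel (by simpa [H302.mul] using congrArg V.a35 e3.1)
    have f9 : a.a13 = false := xor_cancel (by simpa [H302.mul] using (congrArg V.a14 e3.1).symm)
    exact V.ext' f7 f1 f4 f8 f9 f2 f6 f5 f3
  · rintro rfl g
    obtain ⟨b, q, rfl⟩ := h.surj g
    rw [← h.mul, ← h.mul, mul_one', one_mul', ct_one, one_ct, Bool.xor_comm q p]

theorem Cod.emb (h : Cod Q u) : Emb (⊤ : Subgroup (Q ⧸ center Q)) (fun a => (u a false : Q ⧸ center Q)) := by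
  refine ⟨?_, ?_, fun _ => mem_top _, ?_⟩
  · intro a b
    rw [← QuotientGroup.mk_mul, ← h.mul, QuotientGroup.eq, h.mul_z (H302.mul a b) (_ ^^ _),
      inv_mul_cancel_left, h.mem_center]
  · intro a b hab
    rw [QuotientGroup.eq] at hab
    obtain ⟨c, r, hc⟩ := h.surj ((u a false)⁻¹ * u b false)
    rw [← hc, h.mem_center] at hab
    rw [hab, eq_inv_mul_iff_mul_eq, ← h.mul_z] at hc
    exact (h.inj hc).1
  · intro g _
    obtain ⟨x, rfl⟩ := QuotientGroup.mk_surjective g
    obtain ⟨a, p, rfl⟩ := h.surj x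
    refine ⟨a, ?_⟩
    rw [QuotientGroup.eq, h.mul_z a p, inv_mul_cancel_left, h.mem_center]

end

/-- coordinates on the quotient of a Sylow 2-subgroup of `M24` by its centre -/
theorem exists_emb_quot (P : Sylow 2 Cfsg.M24) :
    ∃ u : V → (P : Subgroup Cfsg.M24) ⧸ center (P : Subgroup Cfsg.M24), Emb ⊤ u := by
  obtain ⟨u, hu⟩ := exists_cod P
  exact ⟨_, hu.emb⟩

end Cfsg.Agent.H302
end

-- part: H302/Count
section
/-!
# The abelian subgroup of order 64 is unique (helper302)

`Emb.unique`: the only abelian subgroup of order 64 of `S = UT_5(2)/Z` is `A`; `Emb.card_center_le`: the centre of a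
subgroup of order 256 has order at most 8.
-/

set_option autoImplicit false

namespace Cfsg.Agent.H302

open Subgroup

/-- the image in `S / A` -/
def dp (v : V) : Bool × Bool × Bool := (v.a23, v.a34, v.a24)

/-- product of the images -/
def dm (d e : Bool × Bool × Bool) : Bool × Bool × Bool :=
  (d.1 ^^ e.1, d.2.1 ^^ e.2.1, (d.2.2 ^^ e.2.2) ^^ (d.1 && e.2.1))

/-- commuting of the images -/
def cD (d e : Bool × Bool × Bool) : Bool := (d.1 && e.2.1) == (e.1 && d.2.1)

/-- commuting of an element of `A` with an element with image `d` -/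
def cA (d : Bool × Bool × Bool) (a : V) : Bool :=
  (!(a.a12 && d.1) && !(d.2.1 && a.a45)) &&
    (!((a.a13 && d.2.1) ^^ (a.a12 && d.2.2)) && !((d.2.2 && a.a45) ^^ (d.1 && a.a35)))

abbrev d0 : Bool × Bool × Bool := (false, false, false)

theorem dp_mul (a b : V) : dp (mul a b) = dm (dp a) (dp b) := rfl

theorem dp_eq_zero {v : V} : dp v = d0 ↔ pA v = true := by
  rw [pA_iff]
  simp [dp, d0]

theorem cD_of_comm {a b : V} (h : mul a b = mul b a) : cD (dp a) (dp b) = true := by
  have h1 := congrArg V.a24 h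
  obtain ⟨s12, s23, s34, s45, s13, s24, s35, s14, s25⟩ := a
  obtain ⟨t12, t23, t34, t45, t13, t24, t35, t14, t25⟩ := b
  simp only [mul] at h1
  simp only [cD, dp]
  clear h
  revert s23 s34 s24 t23 t34 t24
  decide

theorem cA_of_comm {a b : V} (ha : pA a = true) (h : mul b a = mul a b) : cA (dp b) a = true := by
  rw [pA_iff] at ha
  obtain ⟨h1, h2, h3⟩ := ha
  obtain ⟨t12, t23, t34, t45, t13, t24, t35, t14, t25⟩ := b
  have e1 := congrArg V.a13 h
  have e2 := congrArg V.a35 h
  have e3 := congrArg V.a14 h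
  have e4 := congrArg V.a25 h
  obtain ⟨s12, s23, s34, s45, s13, s24, s35, s14, s25⟩ := a
  simp only at h1 h2 h3
  subst h1 h2 h3
  simp only [mul, Bool.and_false, Bool.false_and, Bool.xor_false, Bool.false_xor] at e1 e2 e3 e4
  clear h
  simp only [cA, dp, Bool.and_eq_true, Bool.not_eq_true']
  refine ⟨⟨?_, ?_⟩, ?_, ?_⟩
  · clear e2 e3 e4
    revert t13 s13 s12 t23; decide
  · clear e1 e3 e4
    revert t35 s35 s45 t34; decide
  · clear e1 e2 e4
    revert t14 s14 s13 t34 s12 t24; decide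
  · clear e1 e2 e3
    revert t25 s25 t24 s45 t23 s35; decide

theorem cnt1 : ∀ d : Bool × Bool × Bool, d ≠ d0 →
    (Finset.univ.filter (fun a : V => (pA a && cA d a) = true)).card ≤ 16 := by
  decide +kernel

theorem cnt2 : ∀ d e : Bool × Bool × Bool, d ≠ d0 → e ≠ d0 → dm d e ≠ d0 →
    (Finset.univ.filter (fun a : V => (pA a && (cA d a && cA e a)) = true)).card ≤ 8 := by
  decide +kernel

theorem cnt3 : ∀ d e : Bool × Bool × Bool, d ≠ d0 → e ≠ d0 → dm d e ≠ d0 → cD d e = true →
    (Finset.univ.filter (fun c : Bool × Bool × Bool => (cD c d && cD c e) = true)).card ≤ 4 := by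
  decide +kernel

theorem cnt4 : ∀ d : Bool × Bool × Bool,
    (Finset.univ.filter (fun c : Bool × Bool × Bool => c = d0 ∨ dm d c = d0)).card ≤ 2 := by
  decide +kernel

section
variable {G : Type*} [Group G] {S : Subgroup G} {u : V → G}

open Classical in
/-- the codes of a subgroup -/
noncomputable def codes (u : V → G) (B : Subgroup G) : Finset V := Finset.univ.filter (fun v => u v ∈ B)

theorem mem_codes {B : Subgroup G} {v : V} : v ∈ codes u B ↔ u v ∈ B := by
  simp [codes]

theorem card_codes (h : Emb S u) {B : Subgroup G} (hB : B ≤ S) : (codes u B).card = Nat.card B := by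
  have e : {v // v ∈ codes u B} ≃ B := Equiv.ofBijective (fun v => (⟨u v.1, mem_codes.1 v.2⟩ : B)) ⟨by
    intro a b hab
    exact Subtype.ext (h.inj (congrArg Subtype.val hab)), by
    rintro ⟨g, hg⟩
    obtain ⟨a, rfl⟩ := h.surj g (hB hg)
    exact ⟨⟨a, mem_codes.2 hg⟩, rfl⟩⟩
  rw [← Nat.card_congr e, Nat.card_eq_fintype_card, Fintype.card_coe]

/-- the codes of `B ∩ A` -/
noncomputable def codesA (u : V → G) (B : Subgroup G) : Finset V := (codes u B).filter (fun v => pA v = true)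

/-- all fibres over `S / A` have at most `|B ∩ A|` elements -/
theorem fiber_le (h : Emb S u) {B : Subgroup G} (d : Bool × Bool × Bool) :
    ((codes u B).filter (fun v => dp v = d)).card ≤ (codesA u B).card := by
  by_cases hne : ((codes u B).filter (fun v => dp v = d)).Nonempty
  · obtain ⟨v0, hv0⟩ := hne
    rw [Finset.mem_filter] at hv0
    refine Finset.card_le_card_of_injOn (fun v => mul (iv v0) v) ?_ ?_
    · intro v hv
      rw [Finset.mem_coe, Finset.mem_filter] at hv
      rw [Finset.mem_coe, codesA, Finset.mem_filter, mem_codes, h.mul, ← h.inv]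
      refine ⟨mul_mem (inv_mem (mem_codes.1 hv0.1)) (mem_codes.1 hv.1), ?_⟩
      have e : dp v = dp v0 := hv.2.trans hv0.2.symm
      obtain ⟨s12, s23, s34, s45, s13, s24, s35, s14, s25⟩ := v
      obtain ⟨t12, t23, t34, t45, t13, t24, t35, t14, t25⟩ := v0
      simp only [dp, Prod.mk.injEq] at e
      obtain ⟨rfl, rfl, rfl⟩ := e
      simp only [pA, mul, iv]
      clear hv hv0
      revert s23 s34 s24
      decide
    · intro v _ w _ hvw
      have h1 := congrArg u hvw
      simp only [h.mul] at h1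
      exact h.inj (mul_left_cancel h1)
  · rw [Finset.not_nonempty_iff_eq_empty] at hne
    rw [hne]
    exact Nat.zero_le _

theorem card_le_image (h : Emb S u) {B : Subgroup G} (hB : B ≤ S) :
    Nat.card B ≤ (codesA u B).card * ((codes u B).image dp).card := by
  rw [← card_codes h hB]
  exact Finset.card_le_mul_card_image _ _ (fun d _ => fiber_le h d)

theorem codesA_le {B : Subgroup G} {b : V} (hb : ∀ a, u a ∈ B → pA a = true → mul b a = mul a b)
    (hbA : pA b ≠ true) : (codesA u B).card ≤ 16 := by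
  refine le_trans (Finset.card_le_card ?_) (cnt1 (dp b) (fun h1 => hbA (dp_eq_zero.1 h1)))
  intro a ha
  rw [codesA, Finset.mem_filter, mem_codes] at ha
  rw [Finset.mem_filter]
  refine ⟨Finset.mem_univ _, ?_⟩
  rw [Bool.and_eq_true]
  exact ⟨ha.2, cA_of_comm ha.2 (hb a ha.1 ha.2)⟩

/-- a subgroup `B` with `|B| > 2 |B ∩ A|` contains an element outside `A ∪ b A` -/
theorem exists_third (h : Emb S u) {B : Subgroup G} (hB : B ≤ S) (b : V)
    (hc : (codesA u B).card * 2 < Nat.card B) : ∃ c, u c ∈ B ∧ dp c ≠ d0 ∧ dm (dp b) (dp c) ≠ d0 := by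
  by_contra hcon
  push Not at hcon
  have h1 : ((codes u B).image dp).card ≤ 2 := by
    refine le_trans (Finset.card_le_card ?_) (cnt4 (dp b))
    intro d hd
    rw [Finset.mem_image] at hd
    obtain ⟨c, hc, rfl⟩ := hd
    rw [Finset.mem_filter]
    refine ⟨Finset.mem_univ _, ?_⟩
    by_cases h2 : dp c = d0
    · exact Or.inl h2
    · exact Or.inr (hcon c (mem_codes.1 hc) h2)
  have h2 := card_le_image h hB
  have h3 := Nat.mul_le_mul_left (codesA u B).card h1
  omega

/-- **`A` is the only abelian subgroup of order 64.** -/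
theorem Emb.unique (h : Emb S u) {B : Subgroup G} (hB : B ≤ S) (hBc : IsMulCommutative B)
    (h64 : Nat.card B = 64) : B = h.A := by
  have hfin : Finite h.A := Nat.finite_of_card_ne_zero (by rw [h.card_A]; norm_num)
  by_contra hne
  have hnle : ¬ B ≤ h.A := by
    intro hle
    exact hne (Subgroup.eq_of_le_of_card_ge hle (by rw [h64, h.card_A]))
  obtain ⟨g, hgB, hgA⟩ := SetLike.not_le_iff_exists.1 hnle
  obtain ⟨b, rfl⟩ := h.surj g (hB hgB)
  rw [h.mem_A] at hgA
  have hcomm : ∀ x y, u x ∈ B → u y ∈ B → H302.mul x y = H302.mul y x := by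
    intro x y hx hy
    rw [← h.commute_iff]
    exact congrArg Subtype.val (hBc.is_comm.comm (⟨u x, hx⟩ : B) ⟨u y, hy⟩)
  have h16 : (codesA u B).card ≤ 16 := codesA_le (fun a ha _ => hcomm b a hgB ha) hgA
  obtain ⟨c, hcB, hc0, hbc⟩ := exists_third h hB b (by omega)
  have hb0 : dp b ≠ d0 := fun h1 => hgA (dp_eq_zero.1 h1)
  have h8 : (codesA u B).card ≤ 8 := by
    refine le_trans (Finset.card_le_card ?_) (cnt2 (dp b) (dp c) hb0 hc0 hbc)
    intro a ha
    rw [codesA, Finset.mem_filter, mem_codes] at ha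
    rw [Finset.mem_filter]
    refine ⟨Finset.mem_univ _, ?_⟩
    rw [Bool.and_eq_true, Bool.and_eq_true]
    exact ⟨ha.2, cA_of_comm ha.2 (hcomm b a hgB ha.1), cA_of_comm ha.2 (hcomm c a hcB ha.1)⟩
  have h4 : ((codes u B).image dp).card ≤ 4 := by
    refine le_trans (Finset.card_le_card ?_) (cnt3 (dp b) (dp c) hb0 hc0 hbc (cD_of_comm (hcomm b c hgB hcB)))
    intro d hd
    rw [Finset.mem_image] at hd
    obtain ⟨a, ha, rfl⟩ := hd
    rw [mem_codes] at ha
    rw [Finset.mem_filter]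
    refine ⟨Finset.mem_univ _, ?_⟩
    rw [Bool.and_eq_true]
    exact ⟨cD_of_comm (hcomm a b ha hgB), cD_of_comm (hcomm a c ha hcB)⟩
  have h5 := card_le_image h hB
  have h6 : (codesA u B).card * ((codes u B).image dp).card ≤ 8 * 4 := Nat.mul_le_mul h8 h4
  omega

/-- **The centre of a subgroup of order 256 has order at most 8.** -/
theorem Emb.card_center_le (h : Emb S u) {B : Subgroup G} (hB : B ≤ S) (h256 : Nat.card B = 256) :
    Nat.card (center B) ≤ 8 := by
  -- the centre as a subgroup of `G`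
  set Z : Subgroup G := (center B).map B.subtype with hZ
  have hZc : Nat.card Z = Nat.card (center B) := by
    rw [hZ]
    exact Nat.card_congr ((center B).equivMapOfInjective B.subtype B.subtype_injective).symm.toEquiv
  have hZS : Z ≤ S := (Subgroup.map_subtype_le _).trans hB
  have hcomm : ∀ z y, u z ∈ Z → u y ∈ B → H302.mul z y = H302.mul y z := by
    intro z y hz hy
    rw [← h.commute_iff]
    obtain ⟨⟨t, ht⟩, htc, ht'⟩ := hz
    have h1 := (mem_center_iff.1 htc) ⟨u y, hy⟩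
    have h2 := congrArg Subtype.val h1
    change u y * t = t * u y at h2
    change t = u z at ht'
    rw [← ht', h2]
  have hAcard : (codesA u B).card ≤ 64 := by
    have h1 : (codesA u B).card ≤ (codes u h.A).card := by
      apply Finset.card_le_card
      intro a ha
      rw [codesA, Finset.mem_filter] at ha
      exact mem_codes.2 (h.mem_A.2 ha.2)
    rwa [card_codes h h.A_le, h.card_A] at h1
  have himg : ((codes u B).image dp).card ≤ 8 := by
    refine le_trans (Finset.card_le_card (Finset.subset_univ _)) ?_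
    decide
  -- the centre lies in `A`
  have hZA : ∀ z, u z ∈ Z → pA z = true := by
    intro z hz
    by_contra hcon
    have h16 : (codesA u B).card ≤ 16 := codesA_le (fun a ha _ => hcomm z a hz ha) hcon
    have h5 := card_le_image h hB
    have h6 : (codesA u B).card * ((codes u B).image dp).card ≤ 16 * 8 := Nat.mul_le_mul h16 himg
    omega
  obtain ⟨b, hbB, hb0, -⟩ := exists_third h hB H302.one (by omega)
  obtain ⟨c, hcB, hc0, hbc⟩ := exists_third h hB b (by omega)
  rw [← hZc, ← card_codes h hZS]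
  refine le_trans (Finset.card_le_card ?_) (cnt2 (dp b) (dp c) hb0 hc0 hbc)
  intro a ha
  rw [mem_codes] at ha
  rw [Finset.mem_filter]
  refine ⟨Finset.mem_univ _, ?_⟩
  rw [Bool.and_eq_true, Bool.and_eq_true]
  exact ⟨hZA a ha, cA_of_comm (hZA a ha) (hcomm a b ha hbB).symm, cA_of_comm (hZA a ha) (hcomm a c ha hcB).symm⟩

end

end Cfsg.Agent.H302
end
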